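import Cfsg.Agent.Lib.Classes.PSLOut
import Cfsg.Agent.Lib.ClassicalLinear.Card
import Cfsg.Agent.Lib.ClassicalLinear.Simple
import Cfsg.Agent.Lib.SchurMult.SL2
import Cfsg.Agent.Lib.SchurCover.Basic
import Mathlib.NumberTheory.SumTwoSquares
import Mathlib.GroupTheory.IsPerfect

/-!
# Facts on `PSL₂(p)` and its perfect central extensions

Order, automorphisms, two anticommuting elements of order four in `SL₂(p)`, and the lift of `SL₂(p)`
into every perfect central extension of `PSL₂(p)`.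
-/

set_option autoImplicit false
set_option linter.style.haveILetI false

open Matrix
open scoped MatrixGroups

namespace CfsgLib.Jordan.AlmostCyclic.PSLTwo

variable {p : ℕ} [Fact p.Prime]

local notation "T" => Matrix.ProjectiveSpecialLinearGroup (Fin 2) (ZMod p)

theorem exists_sq_ne_one (h5 : 5 ≤ p) : ∃ a : ZMod p, a ≠ 0 ∧ a ^ 2 ≠ 1 :=
  ClassicalLinear.exists_sq_ne_one_of_four_le_card (by rw [Nat.card_zmod]; omega)

theorem isSimpleGroup (h5 : 5 ≤ p) : IsSimpleGroup T :=
  ClassicalLinear.isSimpleGroup_psl (Or.inr (exists_sq_ne_one h5))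

theorem commutator_eq_top (h5 : 5 ≤ p) : commutator T = ⊤ :=
  ClassicalLinear.commutator_psl_eq_top (Or.inr (exists_sq_ne_one h5))

theorem commutator_sl_eq_top (h5 : 5 ≤ p) : commutator (SL(2, ZMod p)) = ⊤ :=
  ClassicalLinear.commutator_sl_eq_top (Or.inr (exists_sq_ne_one h5))

theorem center_eq_bot (h5 : 5 ≤ p) : Subgroup.center T = ⊥ := by
  haveI := isSimpleGroup (p := p) h5
  haveI : Group.IsPerfect T := ⟨commutator_eq_top h5⟩
  rcases IsSimpleGroup.eq_bot_or_eq_top_of_normal (Subgroup.center T) inferInstance with h | h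
  · exact h
  · haveI : IsMulCommutative T := ⟨⟨fun a b => (Subgroup.mem_center_iff.1 (h ▸ Subgroup.mem_top b) a)⟩⟩
    exact (Group.IsPerfect.not_isMulCommutative T inferInstance).elim

theorem two_mul_card (h5 : 5 ≤ p) : 2 * Nat.card T = p * (p ^ 2 - 1) :=
  ClassicalLinear.card_PSL_two_of_odd (ZMod.card p) ((Fact.out : p.Prime).odd_of_ne_two (by omega))

theorem three_dvd_card (h5 : 5 ≤ p) : 3 ∣ Nat.card T := by
  refine (Nat.Coprime.dvd_mul_left (by norm_num : Nat.Coprime 3 2)).1 ?_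
  rw [two_mul_card h5]
  refine dvd_mul_of_dvd_right ?_ p
  have h3 : ¬ 3 ∣ p := fun h => by
    have := (Nat.prime_dvd_prime_iff_eq Nat.prime_three (Fact.out : p.Prime)).1 h
    omega
  have hm : p % 3 = 1 ∨ p % 3 = 2 := by omega
  have hp1 : 1 ≤ p ^ 2 := Nat.one_le_pow _ _ (by omega)
  refine (Nat.modEq_iff_dvd' hp1).1 ?_
  rcases hm with h | h <;> simp [Nat.ModEq, Nat.pow_mod, h]

theorem card_mulAut_dvd (h5 : 5 ≤ p) : Nat.card (MulAut T) ∣ 2 * Nat.card T := by
  haveI : Subsingleton (ZMod p ≃+* ZMod p) := ⟨fun a b => RingEquiv.ext fun x =>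
    DFunLike.congr_fun (Subsingleton.elim (a : ZMod p →+* ZMod p) (b : ZMod p →+* ZMod p)) x⟩
  obtain ⟨ψ, hψ, hker⟩ := Classes.exists_field_hom (F := ZMod p)
  obtain ⟨φ, -, -, hcard⟩ := Classes.exists_out_hom le_rfl ψ hψ hker
  have htop : φ.ker = ⊤ := eq_top_iff.2 fun x _ => MonoidHom.mem_ker.2 (Subsingleton.elim _ _)
  rw [htop, Subgroup.card_top] at hcard
  have hinn : Nat.card (Cfsg.Inn T) = Nat.card T := by
    refine (Nat.card_congr (MonoidHom.ofInjective (f := MulAut.conj) ?_).toEquiv).symm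
    rw [← MonoidHom.ker_eq_bot_iff, eq_bot_iff, ← center_eq_bot (p := p) h5]
    intro x hx
    rw [Subgroup.mem_center_iff]
    intro g
    have h1 := MulEquiv.congr_fun (MonoidHom.mem_ker.1 hx) g
    simp only [MulAut.conj_apply, MulAut.one_apply] at h1
    exact (mul_inv_eq_iff_eq_mul.1 h1).symm
  rw [Subgroup.card_eq_card_quotient_mul_card_subgroup (Cfsg.Inn T), hinn]
  refine mul_dvd_mul_right ?_ _
  show Nat.card (Cfsg.Out T) ∣ 2
  rw [hcard]
  exact Nat.gcd_dvd_left _ _

theorem center_sl_eq (x : SL(2, ZMod p)) (hx : x ∈ Subgroup.center (SL(2, ZMod p))) : x * x = 1 := by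
  obtain ⟨r, hr, hr'⟩ := Matrix.SpecialLinearGroup.mem_center_iff.1 hx
  rw [Fintype.card_fin] at hr
  refine Subtype.ext ?_
  rw [Matrix.SpecialLinearGroup.coe_mul, ← hr', ← map_mul, ← sq, hr, map_one]
  rfl

/-- Two anticommuting elements of order four. -/
theorem exists_pair (h5 : 5 ≤ p) : ∃ z a b : SL(2, ZMod p), z ∈ Subgroup.center (SL(2, ZMod p)) ∧
    z * z = 1 ∧ a * a = z ∧ b * b = z ∧ (a * b) * (a * b) = z ∧ a * b ≠ b * a ∧ b * a = a * b * z := by
  obtain ⟨x, y, hxy⟩ := ZMod.sq_add_sq p (-1)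
  have h2 : (2 : ZMod p) ≠ 0 := fun h => by
    have h' : ((2 : ℕ) : ZMod p) = 0 := by exact_mod_cast h
    rw [ZMod.natCast_eq_zero_iff] at h'
    exact absurd (Nat.le_of_dvd two_pos h') (by omega)
  let z : SL(2, ZMod p) := ⟨!![-1, 0; 0, -1], by simp [Matrix.det_fin_two]⟩
  let a : SL(2, ZMod p) := ⟨!![0, 1; -1, 0], by simp [Matrix.det_fin_two]⟩
  let b : SL(2, ZMod p) := ⟨!![x, y; y, -x], by
    rw [Matrix.det_fin_two]; simp; linear_combination -hxy⟩
  have hz : z ∈ Subgroup.center (SL(2, ZMod p)) := by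
    refine Subgroup.mem_center_iff.2 fun g => Subtype.ext ?_
    show g.1 * !![-1, 0; 0, -1] = !![-1, 0; 0, -1] * g.1
    ext i j
    fin_cases i <;> fin_cases j <;> simp [Matrix.mul_apply, Fin.sum_univ_two]
  refine ⟨z, a, b, hz, Subtype.ext ?_, Subtype.ext ?_, Subtype.ext ?_, Subtype.ext ?_, ?_, Subtype.ext ?_⟩
  · show !![(-1 : ZMod p), 0; 0, -1] * !![-1, 0; 0, -1] = 1
    ext i j; fin_cases i <;> fin_cases j <;> simp [Matrix.mul_apply, Fin.sum_univ_two]
  · show !![(0 : ZMod p), 1; -1, 0] * !![0, 1; -1, 0] = !![-1, 0; 0, -1]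
    ext i j; fin_cases i <;> fin_cases j <;> simp [Matrix.mul_apply, Fin.sum_univ_two]
  · show !![x, y; y, -x] * !![x, y; y, -x] = !![-1, 0; 0, -1]
    ext i j
    fin_cases i <;> fin_cases j <;> simp [Matrix.mul_apply, Fin.sum_univ_two] <;>
      first | linear_combination hxy | ring
  · show (!![(0 : ZMod p), 1; -1, 0] * !![x, y; y, -x]) * (!![0, 1; -1, 0] * !![x, y; y, -x]) = !![-1, 0; 0, -1]
    ext i j
    fin_cases i <;> fin_cases j <;> simp [Matrix.mul_apply, Fin.sum_univ_two] <;>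
      first | linear_combination hxy | ring
  · intro h
    have h' : !![(0 : ZMod p), 1; -1, 0] * !![x, y; y, -x] = !![x, y; y, -x] * !![0, 1; -1, 0] :=
      congrArg Subtype.val h
    have h00 := congrFun (congrFun h' 0) 0
    have h01 := congrFun (congrFun h' 0) 1
    simp [Matrix.mul_apply, Fin.sum_univ_two] at h00 h01
    have hy : y = 0 := (mul_eq_zero.1 (show (2 : ZMod p) * y = 0 by linear_combination h00)).resolve_left h2
    have hx : x = 0 := (mul_eq_zero.1 (show (2 : ZMod p) * x = 0 by linear_combination -h01)).resolve_left h2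
    rw [hx, hy] at hxy
    exact one_ne_zero (show (1 : ZMod p) = 0 by linear_combination hxy)
  · show !![x, y; y, -x] * !![0, 1; -1, 0] = !![(0 : ZMod p), 1; -1, 0] * !![x, y; y, -x] * !![-1, 0; 0, -1]
    ext i j
    fin_cases i <;> fin_cases j <;> simp [Matrix.mul_apply, Fin.sum_univ_two]

/-- `SL₂(p)` maps onto every finite perfect central extension of `PSL₂(p)`. -/
theorem exists_cover_hom (h5 : 5 ≤ p) {L : Type*} [Group L] (σ : L →* T)
    (hs : Function.Surjective σ) (hc : σ.ker ≤ Subgroup.center L) (hp : commutator L = ⊤) :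
    ∃ h : SL(2, ZMod p) →* L, Function.Surjective h ∧
      σ.comp h = QuotientGroup.mk' (Subgroup.center (SL(2, ZMod p))) := by
  have hM : SchurCover.M0 (SL(2, ZMod p)) = ⊥ :=
    SchurCover.hasCyclicSchurMultiplier_one_iff.1 (SchurMult.sl2_hasCyclicSchurMultiplier_one
      (by rw [ZMod.card]; omega) (by
        rw [ZMod.card]
        intro h
        exact absurd (h ▸ (Fact.out : p.Prime)) (by norm_num)))
  let π : ↥(commutator (SchurCover.Univ (SL(2, ZMod p)))) →* SL(2, ZMod p) :=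
    (SchurCover.proj _).comp (commutator (SchurCover.Univ (SL(2, ZMod p)))).subtype
  have hπi : Function.Injective π := by
    rw [← MonoidHom.ker_eq_bot_iff, eq_bot_iff]
    intro x hx
    have : (x : SchurCover.Univ (SL(2, ZMod p))) ∈ SchurCover.M0 (SL(2, ZMod p)) := ⟨hx, x.2⟩
    rw [hM, Subgroup.mem_bot] at this
    exact Subgroup.mem_bot.2 (Subtype.ext this)
  have hπs : Function.Surjective π := fun g => by
    have hg : g ∈ (commutator (SchurCover.Univ (SL(2, ZMod p)))).map (SchurCover.proj _) := by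
      rw [commutator_def, Subgroup.map_commutator, Subgroup.map_top_of_surjective _ SchurCover.proj_surjective,
        ← commutator_def, commutator_sl_eq_top h5]
      exact Subgroup.mem_top g
    obtain ⟨x, hx, rfl⟩ := hg
    exact ⟨⟨x, hx⟩, rfl⟩
  obtain ⟨f, hf⟩ := SchurCover.exists_hom_surj σ hs hc (QuotientGroup.mk' (Subgroup.center (SL(2, ZMod p))))
  let e := MulEquiv.ofBijective π ⟨hπi, hπs⟩
  let h : SL(2, ZMod p) →* L :=
    (f.comp (commutator (SchurCover.Univ (SL(2, ZMod p)))).subtype).comp e.symm.toMonoidHom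
  have hcomp : σ.comp h = QuotientGroup.mk' (Subgroup.center (SL(2, ZMod p))) := by
    ext g
    have h1 := DFunLike.congr_fun hf ((e.symm g : ↥(commutator (SchurCover.Univ (SL(2, ZMod p))))) :
      SchurCover.Univ (SL(2, ZMod p)))
    refine h1.trans ?_
    exact congrArg _ (e.apply_symm_apply g)
  refine ⟨h, SchurCover.stem_lift_surjective σ ⟨hs, hc, by rw [hp]; exact le_top⟩ h ?_, hcomp⟩
  rw [hcomp]
  exact QuotientGroup.mk'_surjective _

end CfsgLib.Jordan.AlmostCyclic.PSLTwo
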