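import Cfsg.Agent.Lib.Jordan.AlmostCyclic.Basic
import Cfsg.Agent.Lib.Jordan.AlmostCyclic.PSLTwo
import Cfsg.Agent.Lib.Cores.MinimalNormal
import Mathlib.GroupTheory.SchurZassenhaus

/-!
# An almost Sylow-cyclic solvable-by-`PSL₂(p)` group splits

If `H` is almost Sylow-cyclic and maps onto `PSL₂(p)` with solvable kernel, then `H = X × L` with `X` of odd
order, `L` isomorphic to `PSL₂(p)` or `SL₂(p)`, and coprime orders.
-/

set_option autoImplicit false
set_option linter.style.haveILetI false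

open scoped MatrixGroups commutatorElement

namespace CfsgLib.Jordan.AlmostCyclic

variable {H : Type*} [Group H] [Finite H]

/-- A perfect normal subgroup centralises every solvable normal subgroup. -/
theorem commutator_eq_bot_of_perfect (hH : AlmostSylowCyclic H) (L : Subgroup H) [L.Normal]
    (hL : ⁅L, L⁆ = L) (K : Subgroup H) (hKn : K.Normal) (hKs : Group.IsSolvable K) : ⁅K, L⁆ = ⊥ := by
  induction K using WellFoundedLT.induction with
  | ind K IH =>
    rcases eq_or_ne K ⊥ with rfl | hK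
    · exact Subgroup.commutator_bot_left _
    haveI := hKn
    haveI := hKs
    obtain ⟨M, hM⟩ := Set.Finite.exists_maximal (s := {M : Subgroup H | M.Normal ∧ M < K}) (Set.toFinite _)
      ⟨⊥, inferInstance, bot_lt_iff_ne_bot.2 hK⟩
    haveI : M.Normal := hM.1.1
    have hMK : M < K := hM.1.2
    haveI : Group.IsSolvable M :=
      Group.isSolvable_of_isSolvable_injective (Subgroup.inclusion_injective hMK.le)
    have hML := IH M hMK inferInstance inferInstance
    let m := QuotientGroup.mk' M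
    have hms : Function.Surjective m := QuotientGroup.mk'_surjective M
    haveI : (K.map m).Normal := hKn.map m hms
    haveI : Group.IsSolvable (K.map m) := Group.isSolvable_of_surjective (m.subgroupMap_surjective K)
    have hV : K.map m ≠ ⊥ := fun h => hMK.not_ge (by
      rw [Subgroup.map_eq_bot_iff, QuotientGroup.ker_mk'] at h; exact h)
    have hmin : ∀ W : Subgroup (H ⧸ M), W.Normal → W ≤ K.map m → W = ⊥ ∨ W = K.map m := by
      intro W hW hWK
      have h1 : W.comap m ≤ K := by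
        refine (Subgroup.comap_mono hWK).trans ?_
        rw [Subgroup.comap_map_eq, QuotientGroup.ker_mk', sup_eq_left.2 hMK.le]
      rcases h1.lt_or_eq with h2 | h2
      · left
        have h3 : W.comap m ≤ M := hM.le_of_ge ⟨hW.comap m, h2⟩ (fun x hx => show m x ∈ W by
            rw [show m x = 1 from (QuotientGroup.eq_one_iff x).2 hx]; exact one_mem W)
        rw [← Subgroup.map_comap_eq_self_of_surjective hms W, Subgroup.map_eq_bot_iff, QuotientGroup.ker_mk']
        exact h3
      · right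
        rw [← Subgroup.map_comap_eq_self_of_surjective hms W, h2]
    haveI : IsMulCommutative (K.map m) := by
      rw [← Subgroup.commutator_self_eq_bot_iff]
      refine (hmin _ inferInstance (Subgroup.commutator_le_self _)).resolve_right fun h => ?_
      haveI : Nontrivial (K.map m) := (Subgroup.nontrivial_iff_ne_bot _).2 hV
      haveI : Group.IsPerfect (K.map m) := Subgroup.isPerfect_iff.2 h
      exact Group.IsPerfect.not_isSolvable (K.map m) inferInstance
    obtain ⟨r, hr, hexp⟩ := Cores.exists_prime_pow_eq_one_of_minimal_normal hV hmin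
    haveI := (hH.quotient M).isSolvable_mulAut hr hexp
    let ρ : L →* MulAut (K.map m) := MulAut.conjNormal.comp (m.comp L.subtype)
    have hρ : ∀ l, ρ l = 1 := by
      haveI : Group.IsPerfect L := Subgroup.isPerfect_iff.2 hL
      haveI : Group.IsPerfect ρ.range := Group.IsPerfect.range ρ
      haveI : Group.IsSolvable ρ.range := inferInstance
      haveI : Subsingleton ρ.range :=
        not_nontrivial_iff_subsingleton.1 fun hn => Group.IsPerfect.not_isSolvable ρ.range inferInstance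
      exact fun l => congrArg Subtype.val (Subsingleton.elim (ρ.rangeRestrict l) 1)
    have hKL : ⁅K, L⁆ ≤ M := by
      rw [Subgroup.commutator_le]
      intro k hk l hl
      have h1 := congrArg Subtype.val (MulEquiv.congr_fun (hρ ⟨l, hl⟩) ⟨m k, Subgroup.mem_map_of_mem m hk⟩)
      simp only [ρ, MonoidHom.comp_apply, MulAut.conjNormal_apply, MulAut.one_apply] at h1
      rw [← QuotientGroup.ker_mk' M, MonoidHom.mem_ker, map_commutatorElement,
        commutatorElement_eq_one_iff_mul_comm]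
      exact (mul_inv_eq_iff_eq_mul.1 h1).symm
    have h2 : ⁅⁅K, L⁆, L⁆ = ⊥ := eq_bot_iff.2 (hML ▸ Subgroup.commutator_mono hKL le_rfl)
    have h3 : ⁅⁅L, L⁆, K⁆ = ⊥ := Subgroup.commutator_commutator_eq_bot_of_rotate
      (by rwa [Subgroup.commutator_comm L K]) h2
    rw [hL] at h3
    rwa [Subgroup.commutator_comm]

omit [Finite H] in
theorem le_normalizer_zpowers_of_conj_mem [Finite H] {a b : H} (h : b * a * b⁻¹ ∈ Subgroup.zpowers a) :
    Subgroup.zpowers b ≤ Subgroup.normalizer (Subgroup.zpowers a : Set H) := by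
  rw [Subgroup.zpowers_le]
  refine Subgroup.mem_normalizer_fintype fun x hx => ?_
  obtain ⟨i, rfl⟩ := hx
  show b * a ^ i * b⁻¹ ∈ Subgroup.zpowers a
  rw [← conj_zpow]
  exact Subgroup.zpow_mem _ h i

/-- A `2`-element commuting with a dihedral or quaternion pair lies in any subgroup containing the pair. -/
theorem mem_of_commute_pair (hH : AlmostSylowCyclic H) (L : Subgroup H) {a b r : H} {n : ℕ}
    (ha : a ∈ L) (hb : b ∈ L) (oa : orderOf a = n) (ob : orderOf b = n) (oab : orderOf (a * b) = n)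
    (hn : n = 2 ∨ n = 4) (hnot : b ∉ Subgroup.zpowers a) (hconj : b * a * b⁻¹ ∈ Subgroup.zpowers a)
    (hra : Commute r a) (hrb : Commute r b) (hr : r ^ n = 1) : r ∈ L := by
  haveI : Fact (Nat.Prime 2) := ⟨Nat.prime_two⟩
  have hp : ∀ x : H, x ^ n = 1 → IsPGroup 2 (Subgroup.zpowers x) := fun x hx => by
    rcases hn with rfl | rfl
    · exact isPGroup_zpowers_of_pow_eq_one (k := 1) hx
    · exact isPGroup_zpowers_of_pow_eq_one (k := 2) hx
  have han : a ^ n = 1 := oa ▸ pow_orderOf_eq_one a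
  have hbn : b ^ n = 1 := ob ▸ pow_orderOf_eq_one b
  have hP : IsPGroup 2 ↥(Subgroup.zpowers r ⊔ (Subgroup.zpowers b ⊔ Subgroup.zpowers a)) := by
    refine IsPGroup.to_sup_of_normal_right' (hp r hr)
      (IsPGroup.to_sup_of_normal_right' (hp b hbn) (hp a han) (le_normalizer_zpowers_of_conj_mem hconj)) ?_
    refine le_trans ?_ (Subgroup.centralizer_le_normalizer _)
    rw [← Subgroup.le_centralizer_iff, sup_le_iff, Subgroup.zpowers_le, Subgroup.zpowers_le]
    constructor <;>
    · rw [Subgroup.mem_centralizer_iff]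
      rintro _ ⟨i, rfl⟩
      first
        | exact (hrb.zpow_left i).eq
        | exact (hra.zpow_left i).eq
  obtain ⟨Q, hQ⟩ := hP.exists_le_sylow
  obtain ⟨C₀, hC, hi⟩ := hH.2 Q
  haveI := hC
  set C : Subgroup H := C₀.map (Q : Subgroup H).subtype with hCdef
  haveI : IsCyclic C := isCyclic_of_surjective _
    (Subgroup.equivMapOfInjective C₀ _ (Q : Subgroup H).subtype_injective).surjective
  have hrQ : r ∈ (Q : Subgroup H) := hQ (Subgroup.mem_sup_left (Subgroup.mem_zpowers r))
  have hbQ : b ∈ (Q : Subgroup H) :=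
    hQ (Subgroup.mem_sup_right (Subgroup.mem_sup_left (Subgroup.mem_zpowers b)))
  have haQ : a ∈ (Q : Subgroup H) :=
    hQ (Subgroup.mem_sup_right (Subgroup.mem_sup_right (Subgroup.mem_zpowers a)))
  have hmul : ∀ x y : H, x ∈ (Q : Subgroup H) → y ∈ (Q : Subgroup H) → x ∉ C → y ∉ C → x * y ∈ C := by
    intro x y hx hy hxC hyC
    rcases (Nat.dvd_prime Nat.prime_two).1 hi with h1 | h1
    · exact absurd ⟨⟨x, hx⟩, (Subgroup.index_eq_one.1 h1) ▸ Subgroup.mem_top _, rfl⟩ hxC
    · refine ⟨⟨x, hx⟩ * ⟨y, hy⟩, (Subgroup.mul_mem_iff_of_index_two h1).2 ⟨fun h => ?_, fun h => ?_⟩, rfl⟩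
      · exact absurd ⟨_, h, rfl⟩ hxC
      · exact absurd ⟨_, h, rfl⟩ hyC
  -- the conclusion from one element of the pair in `C` and one outside `⟨·⟩`
  have key : ∀ u v : H, u ∈ L → v ∈ L → v ∈ (Q : Subgroup H) → orderOf u = n → v ^ n = 1 →
      v ∉ Subgroup.zpowers u → Commute r v → u ∈ C → r ∈ L := by
    intro u v huL hvL hvQ ou hvn huv hrv huC
    have hvC : v ∉ C := fun h => huv (mem_zpowers_of_cyclic ou huC h hvn)
    by_cases hrC : r ∈ C
    · exact (Subgroup.zpowers_le.2 huL) (mem_zpowers_of_cyclic ou huC hrC hr)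
    · have h1 : r * v ∈ L := (Subgroup.zpowers_le.2 huL)
        (mem_zpowers_of_cyclic ou huC (hmul r v hrQ hvQ hrC hvC) (by rw [hrv.mul_pow, hr, hvn, one_mul]))
      exact (mul_mem_cancel_right hvL).1 h1
  by_cases haC : a ∈ C
  · exact key a b ha hb hbQ oa hbn hnot hrb haC
  by_cases hbC : b ∈ C
  · refine key b a hb ha haQ ob han (fun h => hnot ?_) hra hbC
    have heq : Subgroup.zpowers a = Subgroup.zpowers b :=
      Subgroup.eq_of_le_of_card_ge (Subgroup.zpowers_le.2 h) (by rw [Nat.card_zpowers, Nat.card_zpowers, oa, ob])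
    rw [heq]
    exact Subgroup.mem_zpowers b
  · have habC : a * b ∈ C := hmul a b haQ hbQ haC hbC
    refine key (a * b) a (mul_mem ha hb) ha haQ oab han (fun h => hnot ?_) hra habC
    have heq : Subgroup.zpowers a = Subgroup.zpowers (a * b) :=
      Subgroup.eq_of_le_of_card_ge (Subgroup.zpowers_le.2 h) (by rw [Nat.card_zpowers, Nat.card_zpowers, oa, oab])
    have h2 : a * b ∈ Subgroup.zpowers a := heq ▸ Subgroup.mem_zpowers (a * b)
    exact (mul_mem_cancel_left (Subgroup.mem_zpowers a)).1 h2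

/-- An almost Sylow-cyclic solvable extension of `PSL₂(p)` splits. -/
theorem split (hH : AlmostSylowCyclic H) {p : ℕ} [Fact p.Prime] (h5 : 5 ≤ p)
    (σ : H →* Matrix.ProjectiveSpecialLinearGroup (Fin 2) (ZMod p)) (hs : Function.Surjective σ)
    (hker : Group.IsSolvable σ.ker) :
    ∃ X L : Subgroup H, X.Normal ∧ L.Normal ∧ X ⊓ L = ⊥ ∧ X ⊔ L = ⊤ ∧
      (Nat.card X).Coprime (Nat.card L) ∧ Odd (Nat.card X) ∧
      (∃ (C : Subgroup X) (_ : C.Normal), IsCyclic C ∧ IsCyclic (X ⧸ C)) ∧
      (Nonempty (L ≃* Matrix.ProjectiveSpecialLinearGroup (Fin 2) (ZMod p)) ∨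
        Nonempty (L ≃* SL(2, ZMod p))) := by
  classical
  -- a perfect normal subgroup mapping onto the quotient
  obtain ⟨L, hLmin⟩ := Set.Finite.exists_minimal (s := {K : Subgroup H | K.Normal ∧ K.map σ = ⊤})
    (Set.toFinite _) ⟨⊤, inferInstance, Subgroup.map_top_of_surjective σ hs⟩
  haveI hLn : L.Normal := hLmin.1.1
  have hLtop : L.map σ = ⊤ := hLmin.1.2
  have hperf : ⁅L, L⁆ = L := le_antisymm (Subgroup.commutator_le_self L)
    (hLmin.le_of_le ⟨inferInstance, by
      rw [Subgroup.map_commutator, hLtop, ← commutator_def, PSLTwo.commutator_eq_top h5]⟩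
      (Subgroup.commutator_le_self L))
  set R := σ.ker with hR
  haveI := hker
  have hRL : ⁅R, L⁆ = ⊥ := commutator_eq_bot_of_perfect hH L hperf R inferInstance hker
  have hcomm : ∀ r ∈ R, ∀ l ∈ L, Commute r l := fun r hr l hl => by
    have h1 : ⁅r, l⁆ ∈ ⁅R, L⁆ := Subgroup.commutator_mem_commutator hr hl
    rw [hRL, Subgroup.mem_bot] at h1
    exact commutatorElement_eq_one_iff_mul_comm.1 h1
  -- the cover
  let σL := σ.comp L.subtype
  have hsL : Function.Surjective σL := fun t => by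
    obtain ⟨l, hl, rfl⟩ : t ∈ L.map σ := hLtop ▸ Subgroup.mem_top t
    exact ⟨⟨l, hl⟩, rfl⟩
  have hcL : σL.ker ≤ Subgroup.center L := fun z hz => Subgroup.mem_center_iff.2 fun g =>
    Subtype.ext (hcomm z hz g g.2).eq.symm
  have hpL : commutator L = ⊤ := (Group.isPerfect_def).1 (Subgroup.isPerfect_iff.2 hperf)
  obtain ⟨h, hh, hcomp⟩ := PSLTwo.exists_cover_hom h5 σL hsL hcL hpL
  have hσh : ∀ x, σ (h x : H) = QuotientGroup.mk' (Subgroup.center (SL(2, ZMod p))) x := fun x =>
    DFunLike.congr_fun hcomp x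
  have hkerh : ∀ x, h x = 1 → x ∈ Subgroup.center (SL(2, ZMod p)) := fun x hx => by
    have h1 := hσh x
    rw [hx, OneMemClass.coe_one, map_one] at h1
    exact (QuotientGroup.eq_one_iff x).1 h1.symm
  have hcenter : ∀ x, σ (h x : H) = 1 ↔ x ∈ Subgroup.center (SL(2, ZMod p)) := fun x => by
    rw [hσh, QuotientGroup.mk'_apply, QuotientGroup.eq_one_iff]
  obtain ⟨z, a, b, hz, hzz, haa, hbb, habab, hab, hba⟩ := PSLTwo.exists_pair (p := p) h5
  have hac : ∀ u v : SL(2, ZMod p), u * v ≠ v * u → u ∉ Subgroup.center (SL(2, ZMod p)) := fun u v huv hu =>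
    huv (Subgroup.mem_center_iff.1 hu v).symm
  have hna : a ∉ Subgroup.center (SL(2, ZMod p)) := hac a b hab
  have hnb : b ∉ Subgroup.center (SL(2, ZMod p)) := hac b a (Ne.symm hab)
  have hnab : a * b ∉ Subgroup.center (SL(2, ZMod p)) := hac (a * b) a fun e => hab (by
    rw [mul_assoc, mul_left_cancel_iff] at e; exact e.symm)
  -- the isomorphism type, and the common order of the pair
  obtain ⟨n, hn, hiso, hZn, oa, ob, oab, hnot⟩ : ∃ n : ℕ, (n = 2 ∨ n = 4) ∧
      (Nonempty (L ≃* Matrix.ProjectiveSpecialLinearGroup (Fin 2) (ZMod p)) ∨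
        Nonempty (L ≃* SL(2, ZMod p))) ∧
      (∀ r : H, r * r ∈ L ⊓ R → r ^ n = 1) ∧ orderOf (h a : H) = n ∧ orderOf (h b : H) = n ∧
      orderOf ((h a : H) * (h b : H)) = n ∧ (h b : H) ∉ Subgroup.zpowers (h a : H) := by
    by_cases hinj : Function.Injective h
    · have hz1 : z ≠ 1 := fun e => hab (by rw [hba, e, mul_one])
      have ho : ∀ u : SL(2, ZMod p), u * u = z → orderOf (h u : H) = 4 := fun u hu => by
        rw [Subgroup.orderOf_coe, orderOf_injective h hinj]
        refine orderOf_eq_prime_pow (p := 2) (n := 1) ?_ ?_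
        · rw [pow_one, sq, hu]; exact hz1
        · rw [show 2 ^ (1 + 1) = 2 * 2 from rfl, pow_mul, sq, sq, hu, hzz]
      refine ⟨4, Or.inr rfl, Or.inr ⟨(MulEquiv.ofBijective h ⟨hinj, hh⟩).symm⟩, fun r hr => ?_,
        ho a haa, ho b hbb, ?_, ?_⟩
      · obtain ⟨g, hg⟩ := hh ⟨r * r, hr.1⟩
        have hgc : g ∈ Subgroup.center (SL(2, ZMod p)) := (hcenter g).1 (by rw [hg]; exact hr.2)
        have h1 : (r * r) * (r * r) = 1 := by
          rw [show r * r = (h g : H) by rw [hg], ← Subgroup.coe_mul, ← map_mul, PSLTwo.center_sl_eq g hgc,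
            map_one, OneMemClass.coe_one]
        rw [show 4 = 2 * 2 from rfl, pow_mul, sq, sq]
        exact h1
      · rw [← Subgroup.coe_mul, ← map_mul]
        exact ho _ habab
      · rintro ⟨i, hi⟩
        refine hab (hinj (Subtype.ext ?_))
        rw [map_mul, map_mul, Subgroup.coe_mul, Subgroup.coe_mul, ← hi]
        exact ((Commute.refl (h a : H)).zpow_right i).eq
    · obtain ⟨g, hg, hg1⟩ : ∃ g, h g = 1 ∧ g ≠ 1 := by
        by_contra hcon
        push Not at hcon
        exact hinj ((injective_iff_map_eq_one h).2 hcon)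
      have hker2 : ∀ x ∈ Subgroup.center (SL(2, ZMod p)), h x = 1 := by
        have hle : h.ker ≤ Subgroup.center (SL(2, ZMod p)) := fun x hx => hkerh x hx
        have hc2 : Nat.card (Subgroup.center (SL(2, ZMod p))) ≤ 2 := by
          rw [ClassicalLinear.card_center_SL, Fintype.card_fin]
          exact Nat.le_of_dvd two_pos (Nat.gcd_dvd_left _ _)
        haveI : Nontrivial h.ker := ⟨⟨⟨g, hg⟩, 1, fun e => hg1 (congrArg Subtype.val e)⟩⟩
        have heq := Subgroup.eq_of_le_of_card_ge hle (hc2.trans (Finite.one_lt_card (α := h.ker)))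
        exact fun x hx => heq.ge hx
      have hinjL : Function.Injective σL := (injective_iff_map_eq_one σL).2 fun l hl => by
        obtain ⟨x, rfl⟩ := hh l
        exact hker2 x ((hcenter x).1 hl)
      have ho : ∀ u : SL(2, ZMod p), u * u = z → u ∉ Subgroup.center (SL(2, ZMod p)) →
          orderOf (h u : H) = 2 := fun u hu hnu => by
        refine orderOf_eq_prime ?_ fun e => hnu ((hcenter u).1 (by rw [e, map_one]))
        rw [sq, ← Subgroup.coe_mul, ← map_mul, hu, hker2 z hz, OneMemClass.coe_one]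
      refine ⟨2, Or.inl rfl, Or.inl ⟨MulEquiv.ofBijective σL ⟨hinjL, hsL⟩⟩, fun r hr => ?_,
        ho a haa hna, ho b hbb hnb, ?_, ?_⟩
      · have h1 : (⟨r * r, hr.1⟩ : L) = 1 := hinjL (by rw [map_one]; exact hr.2)
        rw [sq]
        exact congrArg Subtype.val h1
      · rw [← Subgroup.coe_mul, ← map_mul]
        exact ho _ habab hnab
      · intro hmem
        have heq : Subgroup.zpowers (h b : H) = Subgroup.zpowers (h a : H) :=
          Subgroup.eq_of_le_of_card_ge (Subgroup.zpowers_le.2 hmem)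
            (by rw [Nat.card_zpowers, Nat.card_zpowers, ho a haa hna, ho b hbb hnb])
        have hb1 : (h b : H) ≠ 1 := fun e => hnb ((hcenter b).1 (by rw [e, map_one]))
        obtain ⟨i, hi⟩ := hmem
        have hi' : (h b : H) = (h a : H) := by
          simp only at hi
          rw [← zpow_mod_orderOf, ho a haa hna] at hi
          rcases Int.emod_two_eq i with h0 | h0 <;> simp only [Nat.cast_ofNat, h0, zpow_zero, zpow_one] at hi
          · exact absurd hi.symm hb1
          · exact hi.symm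
        refine hnab ((hcenter _).1 ?_)
        rw [map_mul, Subgroup.coe_mul, hi', ← sq, orderOf_dvd_iff_pow_eq_one.1 (ho a haa hna).dvd, map_one]
  have hconj : (h b : H) * (h a : H) * (h b : H)⁻¹ ∈ Subgroup.zpowers (h a : H) := by
    have h1 : b * a * b⁻¹ = a * z := by
      rw [hba, mul_inv_eq_iff_eq_mul, mul_assoc, mul_assoc, Subgroup.mem_center_iff.1 hz b]
    rw [← InvMemClass.coe_inv, ← map_inv, ← Subgroup.coe_mul, ← map_mul, ← Subgroup.coe_mul, ← map_mul, h1,
      ← haa, map_mul, map_mul, Subgroup.coe_mul, Subgroup.coe_mul]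
    exact mul_mem (Subgroup.mem_zpowers _) (mul_mem (Subgroup.mem_zpowers _) (Subgroup.mem_zpowers _))
  -- the 2-elements of the kernel lie in `L`
  have hstep : ∀ r ∈ R, r * r ∈ L → r ∈ L := fun r hr hr2 =>
    mem_of_commute_pair hH L (h a).2 (h b).2 oa ob oab hn hnot hconj (hcomm r hr _ (h a).2)
      (hcomm r hr _ (h b).2) (hZn r ⟨hr2, mul_mem hr hr⟩)
  have htwo : ∀ k : ℕ, ∀ r ∈ R, r ^ (2 ^ k) = 1 → r ∈ L := by
    intro k
    induction k with
    | zero =>
      intro r _ h1
      rw [pow_zero, pow_one] at h1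
      rw [h1]
      exact one_mem _
    | succ k ih =>
      intro r hr h1
      refine hstep r hr (ih (r * r) (mul_mem hr hr) ?_)
      rw [← sq, ← pow_mul, ← pow_succ']
      exact h1
  haveI : Fact (Nat.Prime 2) := ⟨Nat.prime_two⟩
  -- the odd complement in the kernel
  set Z' : Subgroup R := L.subgroupOf R with hZ'
  haveI : Z'.Normal := hLn.subgroupOf R
  have hZ4 : ∀ w ∈ L ⊓ R, w ^ 4 = 1 := fun w hw => by
    rcases hn with rfl | rfl
    · rw [show 4 = 2 * 2 from rfl, pow_mul, hZn w (mul_mem hw hw), one_pow]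
    · exact hZn w (mul_mem hw hw)
  have hZp : IsPGroup 2 Z' := fun w => ⟨2, Subtype.ext (Subtype.ext (hZ4 _ ⟨w.2, w.1.2⟩))⟩
  have hodd : Odd Z'.index := by
    obtain ⟨S⟩ : Nonempty (Sylow 2 R) := inferInstance
    have hSZ : (S : Subgroup R) ≤ Z' := fun s hs' => by
      obtain ⟨k, hk⟩ := S.2 ⟨s, hs'⟩
      exact htwo k s s.2 (congrArg Subtype.val (congrArg Subtype.val hk))
    rw [Nat.odd_iff, ← Nat.two_dvd_ne_zero]
    exact fun h2 => S.not_dvd_index (h2.trans (Subgroup.index_dvd_of_le hSZ))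
  have hcop : (Nat.card Z').Coprime Z'.index := by
    obtain ⟨k, hk⟩ := hZp.exists_card_eq
    rw [hk]
    exact Nat.Coprime.pow_left _ (Nat.coprime_two_left.2 hodd)
  obtain ⟨X₀, hX₀⟩ := Subgroup.exists_right_complement'_of_coprime hcop
  set X : Subgroup H := X₀.map R.subtype with hX
  have hXcard : Nat.card X = Z'.index := by
    rw [hX, ← Nat.card_congr (Subgroup.equivMapOfInjective X₀ _ R.subtype_injective).toEquiv]
    have h1 := hX₀.card_mul
    rw [← Subgroup.card_mul_index Z'] at h1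
    exact Nat.eq_of_mul_eq_mul_left Nat.card_pos h1
  have hXodd : Odd (Nat.card X) := hXcard ▸ hodd
  have hXR : X ≤ R := Subgroup.map_subtype_le X₀
  have hXmem : ∀ x : H, x ∈ R → Odd (orderOf x) → x ∈ X := fun x hx ho => by
    obtain ⟨⟨⟨w, hw⟩, ⟨y, hy⟩⟩, hwy⟩ := hX₀.2 ⟨x, hx⟩
    have hwy' : (w : H) * (y : H) = x := congrArg Subtype.val hwy
    have hw2 : (w : H) * (w : H) * ((w : H) * (w : H)) = 1 := by
      have := hZ4 w ⟨hw, w.2⟩
      rwa [show 4 = 2 * 2 from rfl, pow_mul, sq, sq] at this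
    have hc : Commute (y : H) (w : H) := hcomm y y.2 w hw
    have hx4 : x ^ 4 = (y : H) ^ 4 := by
      rw [← hwy', hc.symm.mul_pow, hZ4 w ⟨hw, w.2⟩, one_mul]
    have hyX : (y : H) ∈ X := ⟨y, hy, rfl⟩
    obtain ⟨k, hk⟩ := ho
    have hzp : x ∈ Subgroup.zpowers (x ^ 4) := by
      have hcop4 : (4 : ℕ).Coprime (orderOf x) := by
        rw [show (4 : ℕ) = 2 ^ 2 from rfl]
        exact (Nat.coprime_two_left.2 ⟨k, hk⟩).pow_left 2
      obtain ⟨m, hm⟩ := exists_pow_eq_self_of_coprime hcop4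
      exact ⟨(m : ℤ), (zpow_natCast (x ^ 4) m).trans hm⟩
    exact (Subgroup.zpowers_le.2 (hx4 ▸ pow_mem hyX 4)) hzp
  have hXord : ∀ x ∈ X, Odd (orderOf x) := fun x hx => by
    obtain ⟨k, hk⟩ := Subgroup.orderOf_dvd_natCard X hx
    rw [hk] at hXodd
    exact (Nat.odd_mul.1 hXodd).1
  haveI hXn : X.Normal := ⟨fun x hx g => by
    refine hXmem _ ((inferInstance : σ.ker.Normal).conj_mem x (hXR hx) g) ?_
    show Odd (orderOf ((MulAut.conj g).toMonoidHom x))
    rw [orderOf_injective (MulAut.conj g).toMonoidHom (MulAut.conj g).injective x]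
    exact hXord x hx⟩
  have hXL : X ⊓ L = ⊥ := by
    rw [eq_bot_iff]
    rintro x ⟨hxX, hxL⟩
    have h4 : orderOf x ∣ 2 ^ 2 := orderOf_dvd_of_pow_eq_one (hZ4 x ⟨hxL, hXR hxX⟩)
    have h1 : Nat.Coprime (orderOf x) (2 ^ 2) := (Nat.coprime_two_left.2 (hXord x hxX)).symm.pow_right 2
    exact Subgroup.mem_bot.2 (orderOf_eq_one_iff.1 (Nat.eq_one_of_dvd_coprimes h1 dvd_rfl h4))
  have hsup : X ⊔ L = ⊤ := by
    rw [eq_top_iff]
    intro g _
    obtain ⟨l, hl⟩ := hsL (σ g)
    have hgR : g * (l : H)⁻¹ ∈ R := by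
      rw [hR, MonoidHom.mem_ker, map_mul, map_inv]
      exact mul_inv_eq_one.2 hl.symm
    obtain ⟨⟨⟨w, hw⟩, ⟨y, hy⟩⟩, hwy⟩ := hX₀.2 ⟨_, hgR⟩
    have hwy' : (w : H) * (y : H) = g * (l : H)⁻¹ := congrArg Subtype.val hwy
    rw [← mul_inv_eq_iff_eq_mul] at hwy'
    rw [← hwy']
    refine mul_mem (mul_mem (Subgroup.mem_sup_right hw) (Subgroup.mem_sup_left ⟨y, hy, rfl⟩)) ?_
    rw [inv_inv]
    exact Subgroup.mem_sup_right l.2
  refine ⟨X, L, hXn, hLn, hXL, hsup, ?_, hXodd, ?_, hiso⟩
  · refine Nat.coprime_of_dvd fun q hq hqX hqL => ?_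
    haveI : Fact q.Prime := ⟨hq⟩
    obtain ⟨x, hx⟩ := exists_prime_orderOf_dvd_card' q hqX
    obtain ⟨y, hy⟩ := exists_prime_orderOf_dvd_card' q hqL
    have hq2 : q ≠ 2 := fun e => by
      subst e
      exact (Nat.not_even_iff_odd.2 hXodd) (even_iff_two_dvd.2 hqX)
    rw [← Subgroup.orderOf_coe] at hx hy
    have hyX : (y : H) ∈ X := (Subgroup.zpowers_le.2 x.2)
      (hH.mem_zpowers_of_commute hq hq2 hx (hy ▸ pow_orderOf_eq_one (y : H)) (hcomm x (hXR x.2) y y.2))
    have : (y : H) ∈ X ⊓ L := ⟨hyX, y.2⟩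
    rw [hXL, Subgroup.mem_bot] at this
    rw [this, orderOf_one] at hy
    exact hq.one_lt.ne hy
  · haveI : IsZGroup X := ⟨fun q hq P => by
      rcases eq_or_ne q 2 with rfl | hq2
      · haveI : Subsingleton ↥(P : Subgroup X) := by
          rw [← Finite.card_le_one_iff_subsingleton]
          obtain ⟨k, hk⟩ := P.2.exists_card_eq
          rcases Nat.eq_zero_or_pos k with rfl | hk0
          · rw [hk, pow_zero]
          · have h2 : 2 ∣ Nat.card X :=
              (hk ▸ dvd_pow_self 2 hk0.ne').trans (Subgroup.card_subgroup_dvd_card _)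
            exact absurd (even_iff_two_dvd.2 h2) (Nat.not_even_iff_odd.2 hXodd)
        infer_instance
      · exact (hH.subgroup X).1 q hq hq2 P⟩
    exact ⟨commutator X, inferInstance, IsZGroup.isCyclic_commutator X, (IsZGroup.isCyclic_abelianization : IsCyclic (Abelianization X))⟩

end CfsgLib.Jordan.AlmostCyclic
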