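import Cfsg.Agent.Lib.Jordan.AlmostCyclic.Split
import Cfsg.Agent.Lib.AltGroups.MinimalNormalProduct

/-!
# The structure of nonsolvable almost Sylow-cyclic groups

Assuming that every almost Sylow-cyclic nonabelian simple group of order at most `|G|` is some `PSL₂(p)`, a
nonsolvable almost Sylow-cyclic group `G` has a normal subgroup of index at most two that is the direct
product of a Z-group of odd order and `PSL₂(p)` or `SL₂(p)`.
-/

set_option autoImplicit false
set_option linter.style.haveILetI false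

open scoped MatrixGroups

namespace CfsgLib.Jordan.AlmostCyclic

universe u

/-- A nonabelian simple group has an odd prime dividing its order. -/
theorem exists_odd_prime_dvd {S : Type*} [Group S] [Finite S] [IsSimpleGroup S]
    (hS : ¬ Group.IsSolvable S) : ∃ q : ℕ, q.Prime ∧ q ≠ 2 ∧ q ∣ Nat.card S := by
  by_contra hcon
  push Not at hcon
  haveI : Fact (Nat.Prime 2) := ⟨Nat.prime_two⟩
  have h2 : ∀ q, q.Prime → q ∣ Nat.card S → q = 2 := fun q hq hd => by_contra fun h => hcon q hq h hd
  have hpg : IsPGroup 2 S :=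
    IsPGroup.of_card (n := (Nat.card S).primeFactorsList.length)
      (Nat.eq_prime_pow_of_unique_prime_dvd Nat.card_pos.ne' fun {d} hd hdd => h2 d hd hdd)
  haveI := hpg.isNilpotent
  exact hS inferInstance

/-- In a group without solvable normal subgroups a minimal normal subgroup is some `PSL₂(p)`. -/
theorem minimal_isPSLPrime {Q : Type u} [Group Q] [Finite Q] {n : ℕ} (hS : SimpleHyp.{u} n)
    (hn : Nat.card Q ≤ n) (hQ : AlmostSylowCyclic Q)
    (hrad : ∀ M : Subgroup Q, M.Normal → Group.IsSolvable M → M = ⊥)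
    (N : Subgroup Q) [N.Normal] (hN : N ≠ ⊥)
    (hmin : ∀ M : Subgroup Q, M.Normal → M ≤ N → M = ⊥ ∨ M = N) : IsPSLPrime ↥N := by
  obtain ⟨S, hSg, m, hSs, hm, ⟨e⟩⟩ := AltGroups.exists_mulEquiv_pi_of_minimal_normal N hN hmin
  haveI := hSs
  haveI : Finite (Fin m → S) := Finite.of_equiv N e.toEquiv
  haveI : Finite S := Finite.of_surjective (fun f : Fin m → S => f ⟨0, hm⟩) fun s => ⟨fun _ => s, rfl⟩
  have hns : ¬ Group.IsSolvable S := fun hsol => hN (hrad N inferInstance (by
    haveI := hsol
    haveI : Group.IsSolvable (Fin m → S) := Group.isSolvable_of_comm fun a b => funext fun i =>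
      (IsSimpleGroup.comm_iff_isSolvable (G := S)).2 hsol (a i) (b i)
    exact Group.isSolvable_of_isSolvable_injective (f := e.toMonoidHom) e.injective))
  have hA : AlmostSylowCyclic (Fin m → S) :=
    hQ.of_injective (f := N.subtype.comp e.symm.toMonoidHom) (N.subtype_injective.comp e.symm.injective)
  obtain rfl : m = 1 := by
    by_contra hm1
    obtain ⟨q, hq, hq2, hqd⟩ := exists_odd_prime_dvd hns
    haveI : Fact q.Prime := ⟨hq⟩
    obtain ⟨t, ht⟩ := exists_prime_orderOf_dvd_card' q hqd
    let i : Fin m := ⟨0, hm⟩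
    let j : Fin m := ⟨1, by omega⟩
    have hij : i ≠ j := fun h => by simp [i, j, Fin.ext_iff] at h
    have hx : orderOf (Pi.mulSingle i t : Fin m → S) = q := by
      rw [← ht]
      exact orderOf_injective (MonoidHom.mulSingle (fun _ => S) i)
        (fun a b h => by simpa using congrFun h i) t
    have hy : (Pi.mulSingle j t : Fin m → S) ^ q = 1 := by
      rw [← Pi.mulSingle_pow, ← ht, pow_orderOf_eq_one, Pi.mulSingle_one]
    obtain ⟨k, hk⟩ := hA.mem_zpowers_of_commute hq hq2 hx hy (Pi.mulSingle_commute (f := fun _ => S) hij t t)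
    have h1 := congrFun hk j
    simp only [Pi.pow_apply, Pi.mulSingle_eq_same, Pi.mulSingle_eq_of_ne hij.symm, one_zpow] at h1
    rw [← h1, orderOf_one] at ht
    exact hq.one_lt.ne ht
  let eS : N ≃* S := e.trans (MulEquiv.funUnique (Fin 1) S)
  haveI : IsSimpleGroup N := eS.isSimpleGroup_congr.2 hSs
  refine hS ↥N ((Subgroup.card_le_card_group N).trans hn) (fun hcomm => hns ?_) (hQ.subgroup N)
  haveI := hcomm
  exact Group.isSolvable_of_comm fun a b => eS.symm.injective (by
    rw [map_mul, map_mul]; exact mul_comm' _ _)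

/-- The structure theorem, given the classification of the simple groups of this kind up to the order. -/
theorem hasStructure {G : Type u} [Group G] [Finite G] (hS : SimpleHyp.{u} (Nat.card G))
    (hG : AlmostSylowCyclic G) (hns : ¬ Group.IsSolvable G) : HasStructure G := by
  classical
  obtain ⟨R, hR⟩ := Set.Finite.exists_maximal
    (s := {M : Subgroup G | M.Normal ∧ Group.IsSolvable M}) (Set.toFinite _)
    ⟨⊥, inferInstance, inferInstance⟩
  haveI hRn : R.Normal := hR.1.1
  haveI hRs : Group.IsSolvable R := hR.1.2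
  let m := QuotientGroup.mk' R
  have hms : Function.Surjective m := QuotientGroup.mk'_surjective R
  have hrad : ∀ M : Subgroup (G ⧸ R), M.Normal → Group.IsSolvable M → M = ⊥ := by
    intro M hM hMs
    haveI := hMs
    have hsol : Group.IsSolvable (M.comap m) := by
      have hle : R ≤ M.comap m := fun x hx => show m x ∈ M by
        rw [show m x = 1 from (QuotientGroup.eq_one_iff x).2 hx]; exact one_mem M
      refine Group.isSolvable_of_ker_le_range (Subgroup.inclusion hle) (m.subgroupComap M) ?_
      rintro ⟨x, hx⟩ hk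
      exact ⟨⟨x, (QuotientGroup.eq_one_iff x).1 (congrArg Subtype.val hk)⟩, rfl⟩
    have h1 : M.comap m ≤ R := hR.le_of_ge ⟨hM.comap m, hsol⟩ fun x hx => show m x ∈ M by
      rw [show m x = 1 from (QuotientGroup.eq_one_iff x).2 hx]; exact one_mem M
    rw [← Subgroup.map_comap_eq_self_of_surjective hms M, Subgroup.map_eq_bot_iff, QuotientGroup.ker_mk']
    exact h1
  have hQ : AlmostSylowCyclic (G ⧸ R) := hG.quotient R
  have hn : Nat.card (G ⧸ R) ≤ Nat.card G := Nat.card_le_card_of_surjective m hms
  have htop : (⊤ : Subgroup (G ⧸ R)) ≠ ⊥ := fun h => hns <| by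
    haveI : Group.IsSolvable (G ⧸ R) := Group.isSolvable_of_top_eq_bot (G ⧸ R) h
    refine Group.isSolvable_of_ker_le_range R.subtype m ?_
    rw [QuotientGroup.ker_mk', Subgroup.range_subtype]
  obtain ⟨N, hNn, -, hNb, hNmin⟩ := Cores.exists_minimal_normal_le htop
  haveI := hNn
  obtain ⟨p, hpf, h5, ⟨e⟩⟩ := minimal_isPSLPrime hS hn hQ hrad N hNb hNmin
  haveI := hpf
  -- the centralizer of `N` is trivial
  have hC : Subgroup.centralizer (N : Set (G ⧸ R)) = ⊥ := by
    by_contra hC
    obtain ⟨M, hMn, hMC, hMb, hMmin⟩ := Cores.exists_minimal_normal_le hC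
    haveI := hMn
    obtain ⟨p', hpf', h5', ⟨e'⟩⟩ := minimal_isPSLPrime hS hn hQ hrad M hMb hMmin
    haveI := hpf'
    haveI : Fact (Nat.Prime 3) := ⟨Nat.prime_three⟩
    obtain ⟨x, hx⟩ := exists_prime_orderOf_dvd_card' (G := N) 3
      (by rw [Nat.card_congr e.toEquiv]; exact PSLTwo.three_dvd_card h5)
    obtain ⟨y, hy⟩ := exists_prime_orderOf_dvd_card' (G := M) 3
      (by rw [Nat.card_congr e'.toEquiv]; exact PSLTwo.three_dvd_card h5')
    rw [← Subgroup.orderOf_coe] at hx hy
    have hyN : (y : G ⧸ R) ∈ N := (Subgroup.zpowers_le.2 x.2)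
      (hQ.mem_zpowers_of_commute Nat.prime_three (by norm_num) hx (hy ▸ pow_orderOf_eq_one (y : G ⧸ R))
        (Subgroup.mem_centralizer_iff.1 (hMC y.2) x x.2))
    rcases hNmin (M ⊓ N) inferInstance inf_le_right with hb | hb
    · have : (y : G ⧸ R) ∈ M ⊓ N := ⟨y.2, hyN⟩
      rw [hb, Subgroup.mem_bot] at this
      rw [this, orderOf_one] at hy
      norm_num at hy
    · -- `N ≤ M ≤ C(N)`, so `N` is abelian
      have hNC : N ≤ Subgroup.centralizer (N : Set (G ⧸ R)) := (hb.ge.trans inf_le_left).trans hMC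
      haveI : IsMulCommutative N := ⟨⟨fun a b => Subtype.ext
        (Subgroup.mem_centralizer_iff.1 (hNC b.2) a a.2)⟩⟩
      exact hNb (hrad N inferInstance (Group.isSolvable_of_comm fun a b => mul_comm' a b))
  -- the index of `N`
  have hidx : N.index ∣ 2 := by
    let ρ : G ⧸ R →* MulAut N := MulAut.conjNormal
    have hρ : Function.Injective ρ := (injective_iff_map_eq_one ρ).2 fun g hg => by
      rw [← Subgroup.mem_bot, ← hC, Subgroup.mem_centralizer_iff]
      intro x hx
      have h1 := congrArg Subtype.val (MulEquiv.congr_fun hg ⟨x, hx⟩)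
      rw [MulAut.conjNormal_apply, MulAut.one_apply] at h1
      exact (mul_inv_eq_iff_eq_mul.1 h1).symm
    have h1 : Nat.card (G ⧸ R) ∣ 2 * Nat.card N := by
      refine (Subgroup.card_dvd_of_injective ρ hρ).trans ?_
      rw [Nat.card_congr (MulAut.congr e).toEquiv, Nat.card_congr e.toEquiv]
      exact PSLTwo.card_mulAut_dvd h5
    rw [← Subgroup.index_mul_card N] at h1
    exact Nat.dvd_of_mul_dvd_mul_right Nat.card_pos h1
  -- the split
  let σ : ↥(N.comap m) →* Matrix.ProjectiveSpecialLinearGroup (Fin 2) (ZMod p) :=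
    e.toMonoidHom.comp (m.subgroupComap N)
  have hσ : Function.Surjective σ := e.surjective.comp fun y => by
    obtain ⟨g, hg⟩ := hms y
    exact ⟨⟨g, show m g ∈ N from hg ▸ y.2⟩, Subtype.ext hg⟩
  have hker : Group.IsSolvable σ.ker := by
    refine Group.isSolvable_of_isSolvable_injective
      (f := ((N.comap m).subtype.comp σ.ker.subtype).codRestrict R fun x => ?_) ?_
    · have h1 : σ x.1 = 1 := x.2
      exact (QuotientGroup.eq_one_iff _).1
        (congrArg Subtype.val (e.injective (h1.trans (map_one e).symm)))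
    · intro x y hxy
      exact Subtype.ext (Subtype.ext (congrArg (Subtype.val (p := (· ∈ R))) hxy))
  obtain ⟨X, L, hX, hL, h1, h2, h3, h4, h6, h7⟩ := split (hG.subgroup _) h5 σ hσ hker
  refine ⟨N.comap m, hNn.comap m, ?_, X, L, hX, hL, h1, h2, h3, h4, h6, p, hpf, h5, h7⟩
  rwa [Subgroup.index_comap_of_surjective N hms]

end CfsgLib.Jordan.AlmostCyclic
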